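import Cfsg.Agent.H877.BSgnDeg

/-!
# The even spherical functions of degree `4275362520`, `9287037474` in the signed scheme of the Baby Monster (helper160)
-/

set_option autoImplicit false
set_option linter.constructorNameAsVariable false

namespace Cfsg.Agent.H160.BL.EvenB

open Cfsg.Agent.BabyM.Inst Cfsg.Agent.H816.IMEig Cfsg.Agent.H816.IMEig.Col Cfsg.Agent.H877.BSgn

/-- The spherical function of degree `4275362520`. -/
noncomputable def e4 : Fin 8 → ℂ := ![1, 1, 43/88179, 43/88179, -31/2315264, -31/2315264, -7/40128, 47/15519504]

theorem eig_e4 : Eig (3 : Fin 8) 0 t8 (1935) e4 where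
  one := rfl
  eig := by
    intro u
    rw [kk3]
    fin_cases u
    all_goals
      simp only [Fin.sum_univ_eight]
      simp [t8, e4]
      try norm_num
  uniq := by
    intro φ h
    rw [kk3] at h
    have h0 := h 0
    have h1 := h 1
    have h2 := h 2
    have h3 := h 3
    have h4 := h 4
    have h5 := h 5
    have h6 := h 6
    have h7 := h 7
    simp only [Fin.sum_univ_eight] at h0 h1 h2 h3 h4 h5 h6 h7
    simp [t8] at h0 h1 h2 h3 h4 h5 h6 h7
    intro u
    fin_cases u
    · simp [e4]
    · simp [e4]
      linear_combination (943823/1706400000) * h0 + (-943823/1706400000) * h1 + (-1541/87026400000) * h2 + (1541/87026400000) * h3 + (13/116035200000) * h4 + (-13/116035200000) * h5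
    · simp [e4]
      linear_combination (2387317/8851096800000) * h0 + (-1541/87026400000) * h1 + (-66263/7673900925600000) * h2 + (66263/7673900925600000) * h3 + (43/787066761600000) * h4 + (-43/787066761600000) * h5
    · simp [e4]
      linear_combination (1/3968055) * h0
    · simp [e4]
      linear_combination (-8904692791/1261611432345600000) * h0 + (1453309/3161933414400000) * h1 + (4807099/21447394349875200000) * h2 + (-1449599/21447394349875200000) * h3 + (-2164009/1568723701019443200000) * h4 + (4489771/3660355302378700800000) * h5
    · simp [e4]
      linear_combination (-26290044581/3784834297036800000) * h0 + (9891557/28457400729600000) * h1 + (32718227/193026549148876800000) * h2 + (-2500727/193026549148876800000) * h3 + (-9009533/32943197721408307200000) * h4 + (3973283/32943197721408307200000) * h5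
    · simp [e4]
      linear_combination (-2520887659787/27748162790092800000) * h0 + (748308743/132766329139200000) * h1 + (353596439/128650572935884800000) * h2 + (-481698329/1415156302294732800000) * h3 + (-223888301/15095000557810483200000) * h4 + (6465641/1372272777982771200000) * h5 + (1/3128674222080) * h6
    · simp [e4]
      linear_combination (360126808541/228331956575923200000) * h0 + (-1174739/12005465932800000) * h1 + (-50513777/1058629980488371200000) * h2 + (68814047/11644929785372083200000) * h3 + (351473/1364973454695628800000) * h4 + (-71051/868619471169945600000) * h5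

/-- The spherical function of degree `9287037474`. -/
noncomputable def e5 : Fin 8 → ℂ := ![1, 1, -1/4199, -1/4199, 1/165376, 1/165376, 1/13376, -1/739024]

theorem eig_e5 : Eig (3 : Fin 8) 0 t8 (-945) e5 where
  one := rfl
  eig := by
    intro u
    rw [kk3]
    fin_cases u
    all_goals
      simp only [Fin.sum_univ_eight]
      simp [t8, e5]
      try norm_num
  uniq := by
    intro φ h
    rw [kk3] at h
    have h0 := h 0
    have h1 := h 1
    have h2 := h 2
    have h3 := h 3
    have h4 := h 4
    have h5 := h 5
    have h6 := h 6
    have h7 := h 7
    simp only [Fin.sum_univ_eight] at h0 h1 h2 h3 h4 h5 h6 h7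
    simp [t8] at h0 h1 h2 h3 h4 h5 h6 h7
    intro u
    fin_cases u
    · simp [e5]
    · simp [e5]
      linear_combination (-14454631/15687302400) * h0 + (14454631/15687302400) * h1 + (73/2241043200) * h2 + (-73/2241043200) * h3 + (-13/62749209600) * h4 + (13/62749209600) * h5
    · simp [e5]
      linear_combination (14454631/65870982777600) * h0 + (73/2241043200) * h1 + (-73/9410140396800) * h2 + (73/9410140396800) * h3 + (1/20267994700800) * h4 + (-1/20267994700800) * h5
    · simp [e5]
      linear_combination (1/3968055) * h0
    · simp [e5]
      linear_combination (-103834789/16718843628748800) * h0 + (-14599/17253708595200) * h1 + (1123/5572947876249600) * h2 + (-107/2388406232678400) * h3 + (-10631/8560047937919385600) * h4 + (3107/2853349312639795200) * h5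
    · simp [e5]
      linear_combination (-137955211/21495656094105600) * h0 + (-42523/66550018867200) * h1 + (3271/21495656094105600) * h2 + (683/150469592658739200) * h3 + (-12623/77040431441274470400) * h4 + (7/647398583540121600) * h5
    · simp [e5]
      linear_combination (-8638909141/109533012303052800) * h0 + (-57557461/5764895384371200) * h1 + (260441/109533012303052800) * h2 + (-6301/109533012303052800) * h3 + (-22087/1752528196848844800) * h4 + (5057/1752528196848844800) * h5 + (1/3261809295360) * h6
    · simp [e5]
      linear_combination (8638909141/6051698929743667200) * h0 + (260441/1441223846092800) * h1 + (-260441/6051698929743667200) * h2 + (6301/6051698929743667200) * h3 + (1699/7448244836607590400) * h4 + (-389/7448244836607590400) * h5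

end Cfsg.Agent.H160.BL.EvenB
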